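import Cfsg.Agent.H602.DP.Def

/-!
# S4247 [Sp-R]: the abelian Sylow `t`-subgroup of a non-nilpotent Hall subgroup (helper680)
-/

set_option autoImplicit false
set_option linter.unusedSectionVars false

namespace Cfsg.Agent.H680.DP

open Module Subgroup Cfsg Cfsg.Agent.H167.OP Cfsg.Agent.H170.HL Cfsg.Agent.H988.CPi Cfsg.Agent.H560.HallKey
  Cfsg.Agent.H553.OddHall Cfsg.Agent.H571.RV Cfsg.Agent.H572.RV Cfsg.Agent.H602.DP

section grp

variable {G : Type*} [Group G]

/-- the `t`-elements of an abelian subgroup -/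
def TT (t : ℕ) (A : Subgroup G) (hab : ∀ a ∈ A, ∀ b ∈ A, a * b = b * a) : Subgroup G where
  carrier := {a | a ∈ A ∧ ∃ k : ℕ, a ^ t ^ k = 1}
  mul_mem' := by
    rintro a b ⟨ha, k, hk⟩ ⟨hb, l, hl⟩
    refine ⟨A.mul_mem ha hb, k + l, ?_⟩
    have hc : Commute a b := hab a ha b hb
    rw [hc.mul_pow, pow_add, pow_mul, hk, one_pow, one_mul, mul_comm, pow_mul, hl, one_pow]
  one_mem' := ⟨A.one_mem, 0, one_pow _⟩
  inv_mem' := by
    rintro a ⟨ha, k, hk⟩
    exact ⟨A.inv_mem ha, k, by rw [inv_pow, hk, inv_one]⟩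

theorem mem_TT {t : ℕ} {A : Subgroup G} {hab : ∀ a ∈ A, ∀ b ∈ A, a * b = b * a} {a : G} :
    a ∈ TT t A hab ↔ a ∈ A ∧ ∃ k : ℕ, a ^ t ^ k = 1 := Iff.rfl

theorem TT_le {t : ℕ} {A : Subgroup G} {hab : ∀ a ∈ A, ∀ b ∈ A, a * b = b * a} : TT t A hab ≤ A := fun _ h => h.1

/-- `TT t A` contains a Sylow `t`-subgroup of `A` -/
theorem not_dvd_of_TT_le [Finite G] {t : ℕ} (ht : t.Prime) {A : Subgroup G}
    {hab : ∀ a ∈ A, ∀ b ∈ A, a * b = b * a} {D : Subgroup G} (hD : TT t A hab ≤ D) : ¬ t ∣ D.relIndex A := by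
  have htf := Fact.mk ht
  obtain ⟨P⟩ : Nonempty (Sylow t A) := inferInstance
  intro hd
  have h1 : (P : Subgroup A) ≤ D.subgroupOf A := by
    intro x hx
    obtain ⟨k, hk⟩ := P.2 ⟨x, hx⟩
    refine hD (mem_TT.2 ⟨x.2, k, ?_⟩)
    exact congrArg (fun y : (P : Subgroup A) => ((y : A) : G)) hk
  exact P.not_dvd_index (hd.trans (Subgroup.index_dvd_of_le h1))

/-- an abelian normal subgroup which is not central, with nilpotent quotient -/
theorem exists_TT [Finite G] {r : ℕ} (hr : r.Prime) {A H : Subgroup G} (hAH : A ≤ H)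
    (hn : H ≤ Subgroup.normalizer (A : Set G)) (hab : ∀ a ∈ A, ∀ b ∈ A, a * b = b * a)
    (hidx : ∀ p : ℕ, p.Prime → p ∣ A.relIndex H → p = r) (hnn : ¬ Group.IsNilpotent H) :
    ∃ t : ℕ, t.Prime ∧ ¬ H ≤ Subgroup.centralizer (TT t A hab : Set G) := by
  classical
  by_contra hcon
  push Not at hcon
  apply hnn
  have hc : A ≤ Subgroup.centralizer (H : Set G) := by
    have h1 : (Subgroup.centralizer (H : Set G)).relIndex A = 1 := by
      by_contra hne
      obtain ⟨t, ht, hd⟩ := Nat.exists_prime_and_dvd hne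
      refine not_dvd_of_TT_le ht (hab := hab) ?_ hd
      intro a ha
      rw [Subgroup.mem_centralizer_iff]
      intro g hg
      exact (Subgroup.mem_centralizer_iff.1 (hcon t ht hg) a ha).symm
    exact Subgroup.relIndex_eq_one.1 h1
  have hN : (A.subgroupOf H).Normal := (Subgroup.normal_subgroupOf_iff_le_normalizer hAH).mpr hn
  have hrf := Fact.mk hr
  have hq : IsPGroup r (H ⧸ A.subgroupOf H) := by
    have h2 : ∃ n : ℕ, Nat.card (H ⧸ A.subgroupOf H) = r ^ n := by
      have h3 : A.relIndex H ≠ 0 := Nat.ne_of_gt (Nat.pos_of_ne_zero Subgroup.index_ne_zero_of_finite)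
      refine ⟨_, Nat.eq_prime_pow_of_unique_prime_dvd h3 ?_⟩
      intro d hd hdd
      exact hidx d hd hdd
    obtain ⟨n, hn'⟩ := h2
    exact IsPGroup.of_card hn'
  have hqn : Group.IsNilpotent (H ⧸ A.subgroupOf H) := hq.isNilpotent
  refine Subgroup.isNilpotent_of_ker_le_center (QuotientGroup.mk' (A.subgroupOf H)) ?_
  rw [QuotientGroup.ker_mk']
  rintro ⟨a, haH⟩ ha
  rw [Subgroup.mem_center_iff]
  rintro ⟨g, hg⟩
  apply Subtype.ext
  exact (Subgroup.mem_centralizer_iff.1 (hc ha) g hg)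

end grp

variable {F : Type*} [Field F] [Finite F] {V : Type*} [AddCommGroup V] [Module F V] [Finite V]
  [FiniteDimensional F V] {G : Type*} [Group G] [Finite G]
  {ρ : Representation F G V} {f : V →ₗ[F] V →ₗ[F] F} {Q : V → F}

/-- **Task R** -/
theorem exists_TS (h : IsoG ρ f Q) {π : Set ℕ} (h2 : 2 ∉ π) (hp : ∀ r ∈ π, r.Prime → (r : F) ≠ 0)
    {H : Subgroup G} (hH : IsPiHall π H) (hnn : ¬ Group.IsNilpotent H) :
    ∃ (r t : ℕ) (T : Subgroup G), r.Prime ∧ 3 ≤ r ∧ r < t ∧ t ∈ π ∧ TS ρ f Q t T ∧ T ≤ H ∧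
      H ≤ normalizer (T : Set G) ∧ ¬ H ≤ centralizer (T : Set G) ∧
      ∀ s : ℕ, s.Prime → s ∣ (centralizer (T : Set G)).relIndex H → s = r := by
  classical
  obtain ⟨r, hr, A, hAH, hn, hab, hrA, hidx⟩ := h.fhall h2 hp hH
  obtain ⟨t, ht, hnc⟩ := exists_TT hr hAH hn hab hidx hnn
  set T := TT t A hab with hTdef
  have htf := Fact.mk ht
  have hrf := Fact.mk hr
  have hTA : T ≤ A := TT_le
  have hTH : T ≤ H := hTA.trans hAH
  -- a nontrivial element of `T`
  obtain ⟨x, hx, hx1⟩ : ∃ x ∈ T, x ≠ 1 := by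
    by_contra hcon
    push Not at hcon
    apply hnc
    intro g _
    rw [Subgroup.mem_centralizer_iff]
    intro a ha
    rw [hcon a ha, one_mul, mul_one]
  have htA : t ∣ Nat.card A := by
    obtain ⟨hxA, k, hk⟩ := hx
    have h3 : orderOf x ∣ t ^ k := orderOf_dvd_of_pow_eq_one hk
    obtain ⟨j, -, hj⟩ := (Nat.dvd_prime_pow ht).1 h3
    have hj0 : j ≠ 0 := by
      rintro rfl
      rw [pow_zero, orderOf_eq_one_iff] at hj
      exact hx1 hj
    have h4 : t ∣ orderOf x := by
      rw [hj]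
      exact dvd_pow_self t hj0
    exact h4.trans (Subgroup.orderOf_dvd_natCard A hxA)
  have htr : t ≠ r := by
    rintro rfl
    exact hrA htA
  have htπ : t ∈ π := hH.1 t ht (htA.trans (Subgroup.card_dvd_of_le hAH))
  -- `T` is normal in `H`
  have hTn' : ∀ g ∈ H, ∀ a ∈ T, g * a * g⁻¹ ∈ T := by
    rintro g hg a ⟨haA, k, hk⟩
    refine ⟨(Subgroup.mem_normalizer_iff.1 (hn hg) a).1 haA, k, ?_⟩
    rw [conj_pow, hk, mul_one, mul_inv_cancel]
  have hTn : H ≤ normalizer (T : Set G) := by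
    intro g hg
    rw [Subgroup.mem_normalizer_iff]
    intro a
    refine ⟨hTn' g hg a, fun ha => ?_⟩
    have := hTn' g⁻¹ (H.inv_mem hg) _ ha
    simpa [mul_assoc] using this
  -- the index of `T` is prime to `t`
  have hTi : ¬ t ∣ T.index := by
    intro hd
    rw [← Subgroup.relIndex_mul_index hTH, ht.dvd_mul] at hd
    rcases hd with hd | hd
    · rw [← Subgroup.relIndex_mul_relIndex T A H hTA hAH, ht.dvd_mul] at hd
      rcases hd with hd | hd
      · exact not_dvd_of_TT_le ht le_rfl hd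
      · exact htr (hidx t ht hd)
    · exact hH.2 t ht htπ hd
  have hTp : IsPGroup t T := by
    rintro ⟨a, ha, k, hk⟩
    exact ⟨k, Subtype.ext hk⟩
  have hmx : ∀ y : G, (∃ k : ℕ, y ^ t ^ k = 1) → (∀ z ∈ T, z * y = y * z) → y ∈ T := by
    rintro y ⟨k, hk⟩ hy
    have hyp : IsPGroup t (Subgroup.zpowers y) := by
      rintro ⟨a, j, rfl⟩
      refine ⟨k, Subtype.ext ?_⟩
      show (y ^ j) ^ t ^ k = 1
      rw [← zpow_natCast, ← zpow_mul, mul_comm, zpow_mul, zpow_natCast, hk, one_zpow]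
    have hyn : Subgroup.zpowers y ≤ Subgroup.normalizer (T : Set G) := by
      rw [Subgroup.zpowers_le, Subgroup.mem_normalizer_iff]
      intro a
      constructor
      · intro ha
        rwa [← hy a ha, mul_inv_cancel_right]
      · intro ha
        have h3 := hy _ ha
        have h4 : y * a * y⁻¹ = a := by
          have : y * (y * a * y⁻¹) = y * a := by rw [← h3]; group
          exact mul_left_cancel this
        rwa [h4] at ha
    have h3 : IsPGroup t (Subgroup.zpowers y ⊔ T : Subgroup G) := hyp.to_sup_of_normal_right' hTp hyn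
    have h4 : T.relIndex (Subgroup.zpowers y ⊔ T) = 1 := by
      by_contra hne
      obtain ⟨s, hs, hd⟩ := Nat.exists_prime_and_dvd hne
      obtain ⟨n, hn'⟩ := IsPGroup.iff_card.1 h3
      have h5 : s ∣ t ^ n := by
        rw [← hn']
        exact hd.trans (Subgroup.relIndex_dvd_card _ _)
      have h6 : s = t := (Nat.prime_dvd_prime_iff_eq hs ht).1 (hs.dvd_of_dvd_pow h5)
      subst h6
      exact hTi (hd.trans (Subgroup.relIndex_dvd_index_of_le le_sup_right))
    exact (le_sup_left.trans (Subgroup.relIndex_eq_one.1 h4)) (Subgroup.mem_zpowers y)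
  have hAc : A ≤ centralizer (T : Set G) := by
    intro a ha
    rw [Subgroup.mem_centralizer_iff]
    exact fun z hz => hab z (hTA hz) a ha
  have hs : ∀ s : ℕ, s.Prime → s ∣ (centralizer (T : Set G)).relIndex H → s = r := fun s hs hd =>
    hidx s hs (hd.trans (Subgroup.relIndex_dvd_of_le_left H hAc))
  have hrπ : r ∈ π := by
    have h3 : (centralizer (T : Set G)).relIndex H ≠ 1 := fun e => hnc (Subgroup.relIndex_eq_one.1 e)
    obtain ⟨s, hs', hd⟩ := Nat.exists_prime_and_dvd h3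
    have h4 := hs s hs' hd
    subst h4
    exact hH.1 s hs' (hd.trans (Subgroup.relIndex_dvd_card _ _))
  have hr3 : 3 ≤ r := by
    have h3 := hr.two_le
    rcases Nat.lt_or_ge r 3 with h4 | h4
    · have : r = 2 := by omega
      rw [this] at hrπ
      exact absurd hrπ h2
    · exact h4
  refine ⟨r, t, T, hr, hr3, ?_, htπ, ?_, hTH, hTn, hnc, hs⟩
  · -- `r < t`
    by_contra hlt
    have htr' : t < r := lt_of_le_of_ne (not_lt.1 hlt) htr
    obtain ⟨T₀, S, hS⟩ := exists_sylow_map (t := r) hrπ hH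
    have hT : SylT ρ f Q r H (S : Subgroup G) :=
      { toStd := h.std h2 hp hH hr hrπ
        hT := S.isPGroup'
        hTH := by rw [hS]; exact Subgroup.map_subtype_le _
        hmax := fun R hR hle => S.is_maximal' hR hle }
    have hfix : ∀ x ∈ (S : Subgroup G), ∀ U ∈ Bl ρ r H, U.map (ρ x) = U := by
      by_contra hcon
      push Not at hcon
      exact hT.perm hH h2 hrπ hcon ht htπ htr'
    have hSB := hT.le_closure hfix
    set B := Subgroup.closure (Zs ρ r H) with hB
    have hBn : H ≤ Subgroup.normalizer (B : Set G) := hT.toStd.le_norm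
    have hBp : IsPGroup r B := hT.toStd.closure_comm.2
    have hBH : B ≤ H := closure_le_H
    have hdis : A ⊓ B = ⊥ := by
      rw [Subgroup.eq_bot_iff_forall]
      rintro y ⟨hyA, hyB⟩
      obtain ⟨k, hk⟩ := hBp ⟨y, hyB⟩
      have hk' : y ^ r ^ k = 1 := congrArg Subtype.val hk
      obtain ⟨j, -, hj⟩ := (Nat.dvd_prime_pow hr).1 (orderOf_dvd_of_pow_eq_one hk')
      by_contra hy1
      have hj0 : j ≠ 0 := by
        rintro rfl
        rw [pow_zero, orderOf_eq_one_iff] at hj
        exact hy1 hj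
      apply hrA
      refine dvd_trans ?_ (Subgroup.orderOf_dvd_natCard A hyA)
      rw [hj]
      exact dvd_pow_self r hj0
    have hcomm : ∀ a ∈ A, ∀ b ∈ B, a * b = b * a := by
      intro a ha b hb
      have h1 : a * b * a⁻¹ * b⁻¹ ∈ B :=
        B.mul_mem ((Subgroup.mem_normalizer_iff.mp (hBn (hAH ha)) b).mp hb) (B.inv_mem hb)
      have h3 : a * b * a⁻¹ * b⁻¹ ∈ A := by
        have h4 := (Subgroup.mem_normalizer_iff.mp (hn (hBH hb)) a⁻¹).mp (A.inv_mem ha)
        have h5 := A.mul_mem ha h4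
        convert h5 using 1
        group
      have h5 : a * b * a⁻¹ * b⁻¹ = 1 := by
        have : a * b * a⁻¹ * b⁻¹ ∈ A ⊓ B := ⟨h3, h1⟩
        rwa [hdis, Subgroup.mem_bot] at this
      calc a * b = (a * b * a⁻¹ * b⁻¹) * (b * a) := by group
        _ = b * a := by rw [h5, one_mul]
    have hle : H ≤ A ⊔ B := by
      rw [← Subgroup.relIndex_eq_one]
      by_contra hne
      obtain ⟨s, hs', hd⟩ := Nat.exists_prime_and_dvd hne
      have h4 : s = r := hidx s hs' (hd.trans (Subgroup.relIndex_dvd_of_le_left H le_sup_left))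
      subst h4
      have h5 : (A ⊔ B).relIndex H ∣ (S : Subgroup G).relIndex H :=
        Subgroup.relIndex_dvd_of_le_left H (hSB.trans le_sup_right)
      exact S.not_dvd_index ((hd.trans h5).trans (Subgroup.relIndex_dvd_index_of_le hT.hTH))
    apply hnc
    refine hle.trans (sup_le hAc ?_)
    intro b hb
    rw [Subgroup.mem_centralizer_iff]
    exact fun z hz => hcomm z (hTA hz) b hb
  · exact { toIsoG := h, ht := ht, hto := odd_of h2 ht htπ, htF := hp t htπ ht, hT := hTp,
            ab := fun a ha b hb => hab a (hTA ha) b (hTA hb), mx := hmx }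

end Cfsg.Agent.H680.DP
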